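import Groth.Agent.Dcoh.FlatRes

/-!
# A functorial epimorphism from a flat module
-/

set_option autoImplicit false
universe v u w

open CategoryTheory CategoryTheory.Limits MonoidalCategory TopologicalSpace Opposite AlgebraicGeometry

namespace Groth.Agent.Dual.H344.FlatCover

section Abstract

variable {A : Type u} [Category.{v} A] {J : Type w} (P : J → A)
  [∀ M : A, HasCoproductsOfShape (Σ j, (P j ⟶ M)) A]

/-- `M ↦ ∐_{j, g : P j ⟶ M} P j`. -/
noncomputable def can : A ⥤ A where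
  obj M := ∐ (fun a : Σ j, (P j ⟶ M) => P a.1)
  map {M N} f := Sigma.desc (fun a => Sigma.ι (fun b : Σ j, (P j ⟶ N) => P b.1) ⟨a.1, a.2 ≫ f⟩)
  map_id M := by
    apply Sigma.hom_ext
    rintro ⟨j, g⟩
    rw [Sigma.ι_desc, Category.comp_id]
    dsimp only
    rw [Category.comp_id]
  map_comp {M N K} f f' := by
    apply Sigma.hom_ext
    rintro ⟨j, g⟩
    rw [Sigma.ι_desc, Sigma.ι_desc_assoc, Sigma.ι_desc]
    dsimp only
    rw [Category.assoc]

/-- The canonical map. -/
noncomputable def canπ : can P ⟶ 𝟭 A where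
  app M := Sigma.desc (fun a : Σ j, (P j ⟶ M) => a.2)
  naturality M N f := by
    apply Sigma.hom_ext
    rintro ⟨j, g⟩
    simp [can]

@[reassoc (attr := simp)]
lemma ι_canπ (M : A) (a : Σ j, (P j ⟶ M)) :
    Sigma.ι (fun a : Σ j, (P j ⟶ M) => P a.1) a ≫ (canπ P).app M = a.2 := Sigma.ι_desc _ _

end Abstract

variable (X : Scheme.{u})

/-- The flat modules `O_U` extended by zero. -/
noncomputable def fr (U : X.Opens) : X.Modules :=
  DCoh.shP.obj ((PresheafOfModules.free X.ringCatSheaf.obj).obj (yoneda.obj U))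

lemma isFlat_fr (U : X.Opens) : FlatMod.IsFlat (fr X U) :=
  Groth.Agent.Dcoh.FlatRes.isFlat_shP_obj _ (fun x =>
    Groth.Agent.Dcoh.StalkFree.flat_stalk_fr (R := X.presheaf) (U := U) x)

/-- The functorial flat cover. -/
noncomputable abbrev F : X.Modules ⥤ X.Modules := can (fr X)

lemma isFlat_F (M : X.Modules) : FlatMod.IsFlat ((F X).obj M) :=
  Groth.Agent.Dcoh.FlatRes.isFlat_sigma _ (fun a => isFlat_fr X a.1)

instance epi_π (M : X.Modules) : Epi ((canπ (fr X)).app M) := by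
  constructor
  intro N u v h
  have hf : (DCoh.toP (X := X)).Faithful := inferInstanceAs (Scheme.Modules.toPresheafOfModules X).Faithful
  apply (DCoh.toP (X := X)).map_injective
  refine PresheafOfModules.freeYoneda.isSeparating _ _ _ ?_
  rintro _ ⟨U⟩ g
  let g' : fr X U ⟶ M := ((Groth.Agent.Dcoh.Stalk.shAdj X).homEquiv _ _).symm g
  have h0 : Sigma.ι (fun a : Σ j, (fr X j ⟶ M) => fr X a.1) ⟨U, g'⟩ ≫ (canπ (fr X)).app M = g' :=
    ι_canπ (fr X) M ⟨U, g'⟩
  have h1 : g' ≫ (show M ⟶ N from u) = g' ≫ (show M ⟶ N from v) := by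
    rw [← h0, Category.assoc, Category.assoc]
    exact congrArg (_ ≫ ·) h
  have h2 := congrArg ((Groth.Agent.Dcoh.Stalk.shAdj X).homEquiv _ _) h1
  have h3 : ((Groth.Agent.Dcoh.Stalk.shAdj X).homEquiv _ _) g' = g := Equiv.apply_symm_apply _ _
  have h4 := (Groth.Agent.Dcoh.Stalk.shAdj X).homEquiv_naturality_right g' (show M ⟶ N from u)
  have h5 := (Groth.Agent.Dcoh.Stalk.shAdj X).homEquiv_naturality_right g' (show M ⟶ N from v)
  rw [h3] at h4 h5
  exact h4.symm.trans (h2.trans h5)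

end Groth.Agent.Dual.H344.FlatCover
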