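import Groth.Agent.Dual.H344.FourCx
import Mathlib.Algebra.Homology.HomologySequenceLemmas
import Mathlib.Algebra.Homology.QuasiIso

/-!
# `S` preserves quasi-isomorphisms between complexes with `K^n ⟶ T K^n` mono
-/

set_option autoImplicit false

universe v₁ v₂ u₁ u₂

open CategoryTheory CategoryTheory.Limits

namespace Groth.Agent.Dual.H344.Four

variable {A : Type u₁} [Category.{v₁} A] [Abelian A] {B : Type u₂} [Category.{v₂} B] [Abelian B]

namespace FourTerm

variable {ι : B ⥤ A} {H S : A ⥤ B} {T : A ⥤ A} (E : FourTerm ι H S T)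
  [ι.Additive] [H.Additive] [S.Additive] [T.Additive] [ι.Full] [ι.Faithful]
  [PreservesFiniteLimits ι] [PreservesFiniteColimits ι]
  [PreservesFiniteLimits T] [PreservesFiniteColimits T]

omit [ι.Full] [ι.Faithful] [PreservesFiniteLimits ι] [PreservesFiniteColimits ι]
  [PreservesFiniteLimits T] [PreservesFiniteColimits T] in
lemma shortExact_of_mono (K : CochainComplex A ℤ) (hK : ∀ n, Mono (E.s.app (K.X n))) :
    (ShortComplex.mk _ _ (E.cx.sp K)).ShortExact where
  exact := E.cx.ex₂ K
  mono_f := HomologicalComplex.mono_of_mono_f _ hK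
  epi_g := E.cx.epi_p K

theorem quasiIso_S {K L : CochainComplex A ℤ} (f : K ⟶ L) (hf : QuasiIso f)
    (hK : ∀ n, Mono (E.s.app (K.X n))) (hL : ∀ n, Mono (E.s.app (L.X n))) :
    QuasiIso ((S.mapHomologicalComplex (ComplexShape.up ℤ)).map f) := by
  let φ : ShortComplex.mk _ _ (E.cx.sp K) ⟶ ShortComplex.mk _ _ (E.cx.sp L) :=
    { τ₁ := f
      τ₂ := (T.mapHomologicalComplex (ComplexShape.up ℤ)).map f
      τ₃ := (ι.mapHomologicalComplex (ComplexShape.up ℤ)).map ((S.mapHomologicalComplex (ComplexShape.up ℤ)).map f)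
      comm₁₂ := E.cx.s.naturality f
      comm₂₃ := E.cx.p.naturality f }
  have h1 : QuasiIso φ.τ₃ := HomologicalComplex.HomologySequence.quasiIso_τ₃ φ
    (E.shortExact_of_mono K hK) (E.shortExact_of_mono L hL) hf
    (inferInstanceAs (QuasiIso ((T.mapHomologicalComplex (ComplexShape.up ℤ)).map f)))
  rwa [← HomologicalComplex.quasiIso_map_iff_of_preservesHomology _ ι]

end FourTerm

end Groth.Agent.Dual.H344.Four
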