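import Mathlib.Algebra.Homology.DerivedCategory.RightDerivedFunctorPlus

/-!
# Bounded below complexes of injectives localize to the bounded below derived category
-/

set_option autoImplicit false

universe w₁ w₂ v₁ v₂ v₃ u₁ u₂ u₃

open CategoryTheory CategoryTheory.Limits HomotopicalAlgebra

namespace Groth.Agent.Dual.H344.PlusLoc

variable (A : Type u₁) [Category.{v₁} A] [Abelian A] [EnoughInjectives A]

open CochainComplex.Plus.modelCategoryQuillen in
/-- `C^+(Inj A) ⥤ C^+(A)` is a localized equivalence. -/
theorem isLocalizedEquivalence : (CochainComplex.Plus.localizerMorphism A).IsLocalizedEquivalence := by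
  have h0 : (CochainComplex.Plus.fibrantObjectLocalizerMorphism A).functor.IsEquivalence :=
    inferInstanceAs (CochainComplex.Plus.fibrantObjectEquivalence (C := A)).functor.IsEquivalence
  have h1 : (CochainComplex.Plus.fibrantObjectLocalizerMorphism A).IsLocalizedEquivalence :=
    (CochainComplex.Plus.fibrantObjectLocalizerMorphism A).isLocalizedEquivalence_of_isInduced
  have h2 : (FibrantObject.localizerMorphism (CochainComplex.Plus A)).IsLocalizedEquivalence := inferInstance
  have h3 : ((CochainComplex.Plus.fibrantObjectLocalizerMorphism A).comp
    (FibrantObject.localizerMorphism (CochainComplex.Plus A))).IsLocalizedEquivalence := inferInstance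
  exact h3

variable [HasDerivedCategory.{w₁} A]

/-- The functor `C^+(Inj A) ⥤ D^+(A)`. -/
noncomputable abbrev U : CochainComplex.Plus (InjectiveObject A) ⥤ DerivedCategory.Plus A :=
  (InjectiveObject.ι A).mapCochainComplexPlus ⋙ DerivedCategory.Plus.Q

instance : (U A).IsLocalization
    ((CochainComplex.Plus.quasiIso A).inverseImage (InjectiveObject.ι A).mapCochainComplexPlus) := by
  have := isLocalizedEquivalence A
  have : (DerivedCategory.Plus.Q (C := A)).IsLocalization (CochainComplex.Plus.quasiIso A) :=
    inferInstanceAs ((HomotopyCategory.Plus.quotient A ⋙ DerivedCategory.Plus.Qh).IsLocalization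
      (CochainComplex.Plus.quasiIso A))
  exact LocalizerMorphism.IsLocalizedEquivalence.isLocalization (CochainComplex.Plus.localizerMorphism A)
    (DerivedCategory.Plus.Q (C := A))

end Groth.Agent.Dual.H344.PlusLoc
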