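import Groth.Agent.Dual.H344.Main
import Groth.Agent.Dual.H344.PlusLoc

/-!
# `R^+H ≅ LS[-1]` on `D^+(A)`
-/

set_option autoImplicit false

universe w₁ w₂ v₁ v₂ v₃ u₁ u₂ u₃

open CategoryTheory CategoryTheory.Limits DerivedCategory

namespace Groth.Agent.Dual.H344.PlusIso

open Groth.Agent.Dual.H344.Four Groth.Agent.Dual.H344.Cover Groth.Agent.Dual.H344.Main
  Groth.Agent.Dual.H344.PlusLoc

variable {A : Type u₁} [Category.{v₁} A] [Abelian A] {B : Type u₂} [Category.{v₂} B] [Abelian B]
  [EnoughInjectives A] [HasDerivedCategory.{w₁} A] [HasDerivedCategory.{w₂} B]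

section

variable (H : A ⥤ B) [H.Additive]

/-- `C^+(Inj A) ⥤ C(A)`. -/
abbrev G : CochainComplex.Plus (InjectiveObject A) ⥤ CochainComplex A ℤ :=
  (InjectiveObject.ι A).mapCochainComplexPlus ⋙ CochainComplex.Plus.ι A

/-- The right derived functor on bounded below complexes of injectives. -/
noncomputable def rdIso : U A ⋙ H.rightDerivedFunctorPlus ⋙ DerivedCategory.Plus.ι ≅
    G (A := A) ⋙ H.mapHomologicalComplex (ComplexShape.up ℤ) ⋙ DerivedCategory.Q :=
  NatIso.ofComponents (fun L =>
    DerivedCategory.Plus.ι.mapIso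
      (asIso (H.rightDerivedFunctorPlusUnit.app ((HomotopyCategory.Plus.quotient A).obj
        ((InjectiveObject.ι A).mapCochainComplexPlus.obj L)))).symm ≪≫
      (DerivedCategory.quotientCompQhIso B).app ((H.mapHomologicalComplex (ComplexShape.up ℤ)).obj
        ((InjectiveObject.ι A).mapCochainComplexPlus.obj L).obj)) (by
    intro K L f
    have h1 := H.rightDerivedFunctorPlusUnit.naturality ((HomotopyCategory.Plus.quotient A).map
      ((InjectiveObject.ι A).mapCochainComplexPlus.map f))
    have h2 := (DerivedCategory.quotientCompQhIso B).hom.naturality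
      ((H.mapHomologicalComplex (ComplexShape.up ℤ)).map ((InjectiveObject.ι A).mapCochainComplexPlus.map f).hom)
    dsimp only [Functor.comp_obj, Functor.comp_map] at h1 h2
    have h3 : H.rightDerivedFunctorPlus.map (Plus.Qh.map ((HomotopyCategory.Plus.quotient A).map
        ((InjectiveObject.ι A).mapCochainComplexPlus.map f))) ≫
        inv (H.rightDerivedFunctorPlusUnit.app ((HomotopyCategory.Plus.quotient A).obj
          ((InjectiveObject.ι A).mapCochainComplexPlus.obj L))) =
        inv (H.rightDerivedFunctorPlusUnit.app ((HomotopyCategory.Plus.quotient A).obj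
          ((InjectiveObject.ι A).mapCochainComplexPlus.obj K))) ≫
        Plus.Qh.map (H.mapHomotopyCategoryPlus.map ((HomotopyCategory.Plus.quotient A).map
          ((InjectiveObject.ι A).mapCochainComplexPlus.map f))) := by
      rw [IsIso.eq_inv_comp, ← Category.assoc, IsIso.comp_inv_eq]
      exact h1.symm
    have h4 := congrArg (fun t => Plus.ι.map t) h3
    rw [Functor.map_comp, Functor.map_comp] at h4
    refine (Category.assoc _ _ _).symm.trans ?_
    refine (congrArg (· ≫ (quotientCompQhIso B).hom.app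
      ((H.mapHomologicalComplex (ComplexShape.up ℤ)).obj
        ((InjectiveObject.ι A).mapCochainComplexPlus.obj L).obj)) h4).trans ?_
    refine (Category.assoc _ _ _).trans ?_
    refine Eq.trans ?_ (Category.assoc _ _ _).symm
    exact congrArg (Plus.ι.map (inv (H.rightDerivedFunctorPlusUnit.app ((HomotopyCategory.Plus.quotient A).obj
          ((InjectiveObject.ι A).mapCochainComplexPlus.obj K)))) ≫ ·) h2)

/-- The inclusion `D^+(A) ⥤ D(A)` on bounded below complexes of injectives. -/
noncomputable def inclIso : U A ⋙ DerivedCategory.Plus.ι ≅ G (A := A) ⋙ DerivedCategory.Q :=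
  Functor.isoWhiskerLeft (G (A := A)) (DerivedCategory.quotientCompQhIso A)

end

section

variable {ι : B ⥤ A} {H S : A ⥤ B} {T : A ⥤ A} (E : FourTerm ι H S T)
  [ι.Additive] [H.Additive] [S.Additive] [T.Additive] [ι.Full] [ι.Faithful]
  [PreservesFiniteLimits ι] [PreservesFiniteColimits ι]
  [PreservesFiniteLimits T] [PreservesFiniteColimits T]
  {F : A ⥤ A} (c : F ⟶ 𝟭 A) [∀ M, Epi (c.app M)]
  (hF : ∀ M, Mono (E.s.app (F.obj M)))
  (hinj : ∀ J : A, Injective J → Epi (E.s.app J))
  {LS : DerivedCategory A ⥤ DerivedCategory B}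
  (ε : Q ⋙ LS ⟶ S.mapHomologicalComplex (ComplexShape.up ℤ) ⋙ Q)
  (hε : ∀ K : CochainComplex A ℤ, (∀ n, Mono (E.s.app (K.X n))) → IsIso (ε.app K))

/-- `H(I) ≅ LS(I)⟦-1⟧` for bounded below complexes of injectives. -/
noncomputable def cmpIso : G (A := A) ⋙ H.mapHomologicalComplex (ComplexShape.up ℤ) ⋙ DerivedCategory.Q ≅
    G (A := A) ⋙ DerivedCategory.Q ⋙ LS ⋙ CategoryTheory.shiftFunctor (DerivedCategory B) (-1 : ℤ) :=
  NatIso.ofComponents (fun L =>
    (shiftEquiv (DerivedCategory B) (1 : ℤ)).unitIso.app _ ≪≫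
      (CategoryTheory.shiftFunctor (DerivedCategory B) (-1 : ℤ)).mapIso
        (isoApp E c ε hε hF (G.obj L) (fun n => hinj _ (inferInstanceAs (Injective (L.obj.X n).obj))))) (by
    intro K L f
    have h1 := isoApp_naturality E c ε hε hF
      (fun n => hinj ((G.obj K).X n) (inferInstanceAs (Injective (K.obj.X n).obj)))
      (fun n => hinj ((G.obj L).X n) (inferInstanceAs (Injective (L.obj.X n).obj))) (G.map f)
    have h2 := (shiftEquiv (DerivedCategory B) (1 : ℤ)).unitIso.hom.naturality
      (Q.map ((H.mapHomologicalComplex (ComplexShape.up ℤ)).map (G.map f)))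
    have h3 := congrArg (fun t => (CategoryTheory.shiftFunctor (DerivedCategory B) (-1 : ℤ)).map t) h1
    rw [Functor.map_comp, Functor.map_comp] at h3
    simp only [Iso.trans_hom, Functor.mapIso_hom, Iso.app_hom]
    refine (Category.assoc _ _ _).symm.trans ?_
    refine (congrArg (· ≫ _) h2).trans ?_
    refine (Category.assoc _ _ _).trans ?_
    refine Eq.trans ?_ (Category.assoc _ _ _).symm
    exact congrArg (_ ≫ ·) h3)

include c hF hinj hε in
/-- `R^+H ≅ LS[-1]` on `D^+(A)`. -/
theorem main : Nonempty (H.rightDerivedFunctorPlus ⋙ DerivedCategory.Plus.ι ≅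
    DerivedCategory.Plus.ι ⋙ LS ⋙ CategoryTheory.shiftFunctor (DerivedCategory B) (-1 : ℤ)) := by
  let W := (CochainComplex.Plus.quasiIso A).inverseImage (InjectiveObject.ι A).mapCochainComplexPlus
  have e : U A ⋙ (H.rightDerivedFunctorPlus ⋙ DerivedCategory.Plus.ι) ≅
      U A ⋙ (DerivedCategory.Plus.ι ⋙ LS ⋙ CategoryTheory.shiftFunctor (DerivedCategory B) (-1 : ℤ)) :=
    rdIso H ≪≫ cmpIso E c hF hinj ε hε ≪≫
      (Functor.isoWhiskerRight (inclIso (A := A)) (LS ⋙ CategoryTheory.shiftFunctor (DerivedCategory B) (-1 : ℤ))).symm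
  exact ⟨Localization.liftNatIso (U A) W _ _ _ _ e⟩

end

end Groth.Agent.Dual.H344.PlusIso
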