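import Mathlib.Algebra.Homology.ShortComplex.SnakeLemma
import Mathlib.Algebra.Homology.ShortComplex.PreservesHomology
import Mathlib.Algebra.Homology.HomologicalComplexAbelian
import Mathlib.Algebra.Homology.Additive
import Mathlib.CategoryTheory.Abelian.Basic
import Mathlib.CategoryTheory.Abelian.Exact

/-!
# Functorial four term exact sequences `0 → ι(H M) → M → T M → ι(S M) → 0` and the snake lemma

`ι : B ⥤ A` fully faithful between abelian categories, `T : A ⥤ A` exact.  For a short exact sequence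
`0 → K → Z → M → 0` in `A` the snake lemma gives the connecting map `H M ⟶ S K`, natural in the
sequence; the sequence `H Z ⟶ H M ⟶ S K ⟶ S Z` is exact after applying `ι`.
-/

set_option autoImplicit false

universe v₁ v₂ u₁ u₂

open CategoryTheory CategoryTheory.Limits

namespace Groth.Agent.Dual.H344.Four

variable {A : Type u₁} [Category.{v₁} A] [Abelian A] {B : Type u₂} [Category.{v₂} B] [Abelian B]

/-- A functorial exact sequence `0 → ι(H M) → M → T M → ι(S M) → 0`. -/
structure FourTerm (ι : B ⥤ A) (H S : A ⥤ B) (T : A ⥤ A) where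
  a : H ⋙ ι ⟶ 𝟭 A
  s : 𝟭 A ⟶ T
  p : T ⟶ S ⋙ ι
  as (M : A) : a.app M ≫ s.app M = 0
  sp (M : A) : s.app M ≫ p.app M = 0
  mono_a (M : A) : Mono (a.app M)
  epi_p (M : A) : Epi (p.app M)
  ex₁ (M : A) : (ShortComplex.mk _ _ (as M)).Exact
  ex₂ (M : A) : (ShortComplex.mk _ _ (sp M)).Exact

namespace FourTerm

variable {ι : B ⥤ A} {H S : A ⥤ B} {T : A ⥤ A} (E : FourTerm ι H S T)

attribute [instance] FourTerm.mono_a FourTerm.epi_p

variable [ι.Additive] [H.Additive] [S.Additive] [T.Additive]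

section

variable [PreservesFiniteLimits T] [PreservesFiniteColimits T]
  {X : ShortComplex A} (hX : X.ShortExact)

/-- The snake input attached to a short exact sequence. -/
@[simps]
noncomputable def snake : ShortComplex.SnakeInput A where
  L₀ := X.map (H ⋙ ι)
  L₁ := X
  L₂ := X.map T
  L₃ := X.map (S ⋙ ι)
  v₀₁ :=
    { τ₁ := E.a.app X.X₁
      τ₂ := E.a.app X.X₂
      τ₃ := E.a.app X.X₃
      comm₁₂ := (E.a.naturality X.f).symm
      comm₂₃ := (E.a.naturality X.g).symm }
  v₁₂ :=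
    { τ₁ := E.s.app X.X₁
      τ₂ := E.s.app X.X₂
      τ₃ := E.s.app X.X₃
      comm₁₂ := (E.s.naturality X.f).symm
      comm₂₃ := (E.s.naturality X.g).symm }
  v₂₃ :=
    { τ₁ := E.p.app X.X₁
      τ₂ := E.p.app X.X₂
      τ₃ := E.p.app X.X₃
      comm₁₂ := (E.p.naturality X.f).symm
      comm₂₃ := (E.p.naturality X.g).symm }
  w₀₂ := by
    ext
    · exact E.as X.X₁
    · exact E.as X.X₂
    · exact E.as X.X₃
  w₁₃ := by
    ext
    · exact E.sp X.X₁
    · exact E.sp X.X₂
    · exact E.sp X.X₃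
  h₀ := by
    apply ShortComplex.isLimitOfIsLimitπ
    · exact (KernelFork.isLimitMapConeEquiv _ _).symm (E.ex₁ X.X₁).fIsKernel
    · exact (KernelFork.isLimitMapConeEquiv _ _).symm (E.ex₁ X.X₂).fIsKernel
    · exact (KernelFork.isLimitMapConeEquiv _ _).symm (E.ex₁ X.X₃).fIsKernel
  h₃ := by
    apply ShortComplex.isColimitOfIsColimitπ
    · exact (CokernelCofork.isColimitMapCoconeEquiv _ _).symm (E.ex₂ X.X₁).gIsCokernel
    · exact (CokernelCofork.isColimitMapCoconeEquiv _ _).symm (E.ex₂ X.X₂).gIsCokernel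
    · exact (CokernelCofork.isColimitMapCoconeEquiv _ _).symm (E.ex₂ X.X₃).gIsCokernel
  L₁_exact := hX.exact
  L₂_exact := hX.exact.map T
  epi_L₁_g := hX.epi_g
  mono_L₂_f := by
    have := hX.mono_f
    exact inferInstanceAs (Mono (T.map X.f))

variable [ι.Full] [ι.Faithful]

/-- The connecting map `H X₃ ⟶ S X₁` of a short exact sequence `X`. -/
noncomputable def δ : H.obj X.X₃ ⟶ S.obj X.X₁ := ι.preimage (E.snake hX).δ

omit [ι.Faithful] in
lemma map_δ : ι.map (E.δ hX) = (E.snake hX).δ := ι.map_preimage _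

/-- `H X₂ ⟶ H X₃ ⟶ S X₁` is zero. -/
lemma H_g_δ : H.map X.g ≫ E.δ hX = 0 := by
  apply ι.map_injective
  rw [Functor.map_comp, map_δ, Functor.map_zero]
  exact (E.snake hX).L₀_g_δ

/-- `H X₃ ⟶ S X₁ ⟶ S X₂` is zero. -/
lemma δ_S_f : E.δ hX ≫ S.map X.f = 0 := by
  apply ι.map_injective
  rw [Functor.map_comp, map_δ, Functor.map_zero]
  exact (E.snake hX).δ_L₃_f

variable [PreservesFiniteLimits ι] [PreservesFiniteColimits ι]

/-- Exactness of `H X₃ ⟶ S X₁ ⟶ S X₂`. -/
lemma exact_δ_S_f : (ShortComplex.mk _ _ (E.δ_S_f hX)).Exact := by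
  rw [← ShortComplex.exact_map_iff_of_faithful _ ι]
  refine (ShortComplex.exact_iff_of_iso ?_).1 (E.snake hX).L₂'_exact
  exact ShortComplex.isoMk (Iso.refl _) (Iso.refl _) (Iso.refl _)
    ((Category.id_comp _).trans ((E.map_δ hX).trans (Category.comp_id _).symm))
    ((Category.id_comp _).trans (Category.comp_id _).symm)

omit [PreservesFiniteLimits ι] [PreservesFiniteColimits ι] in
/-- If `H X₂ = 0`, then `H X₃ ⟶ S X₁` is a monomorphism. -/
lemma mono_δ (h : IsZero (H.obj X.X₂)) : Mono (E.δ hX) := by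
  have h1 : Mono (E.snake hX).δ := (E.snake hX).mono_δ (ι.map_isZero h)
  rw [← map_δ] at h1
  exact ι.mono_of_mono_map h1

include E hX in
/-- If `S X₃ = 0`, then `S X₁ ⟶ S X₂` is an epimorphism. -/
lemma epi_S_f (h : IsZero (S.obj X.X₃)) : Epi (S.map X.f) := by
  have h1 : Epi (E.snake hX).L₃.f := by
    refine ((ShortComplex.exact_iff_epi _ ?_).1 (E.snake hX).L₃_exact)
    exact (ι.map_isZero h).eq_of_tgt _ _
  exact ι.epi_of_epi_map h1

/-- If `H X₂ = 0` and `S X₃ = 0`, then `0 → H X₃ → S X₁ → S X₂ → 0` is exact. -/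
lemma shortExact (h : IsZero (H.obj X.X₂)) (h' : IsZero (S.obj X.X₃)) :
    (ShortComplex.mk _ _ (E.δ_S_f hX)).ShortExact where
  exact := E.exact_δ_S_f hX
  mono_f := E.mono_δ hX h
  epi_g := E.epi_S_f hX h'

omit [PreservesFiniteLimits ι] [PreservesFiniteColimits ι] in
/-- Naturality of the connecting map. -/
lemma δ_naturality {X Y : ShortComplex A} (hX : X.ShortExact) (hY : Y.ShortExact) (f : X ⟶ Y) :
    E.δ hX ≫ S.map f.τ₁ = H.map f.τ₃ ≫ E.δ hY := by
  apply ι.map_injective
  rw [Functor.map_comp, Functor.map_comp, map_δ, map_δ]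
  let φ : E.snake hX ⟶ E.snake hY :=
    { f₀ := (H ⋙ ι).mapShortComplex.map f
      f₁ := f
      f₂ := T.mapShortComplex.map f
      f₃ := (S ⋙ ι).mapShortComplex.map f
      comm₀₁ := by ext <;> exact E.a.naturality _
      comm₁₂ := by ext <;> exact E.s.naturality _
      comm₂₃ := by ext <;> exact E.p.naturality _ }
  exact ShortComplex.SnakeInput.naturality_δ φ

end

section Zero

omit [ι.Additive] [T.Additive] [H.Additive] [S.Additive]

/-- `H M = 0` if `M ⟶ T M` is a monomorphism. -/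
lemma isZero_H [ι.Full] [ι.Faithful] (M : A) [Mono (E.s.app M)] : IsZero (H.obj M) := by
  have h1 : E.a.app M = 0 := by
    rw [← cancel_mono (E.s.app M), E.as, zero_comp]
  have h2 : IsZero (ι.obj (H.obj M)) := by
    rw [IsZero.iff_id_eq_zero, ← cancel_mono (E.a.app M)]
    rw [h1, comp_zero, comp_zero]
  rw [IsZero.iff_id_eq_zero]
  apply ι.map_injective
  exact h2.eq_of_src _ _

/-- `S M = 0` if `M ⟶ T M` is an epimorphism. -/
lemma isZero_S [ι.Full] [ι.Faithful] (M : A) [Epi (E.s.app M)] : IsZero (S.obj M) := by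
  have h1 : E.p.app M = 0 := by
    rw [← cancel_epi (E.s.app M), E.sp, comp_zero]
  have h2 : IsZero (ι.obj (S.obj M)) := by
    rw [IsZero.iff_id_eq_zero, ← cancel_epi (E.p.app M)]
    rw [h1, zero_comp, zero_comp]
  rw [IsZero.iff_id_eq_zero]
  apply ι.map_injective
  exact h2.eq_of_src _ _

end Zero

end FourTerm

end Groth.Agent.Dual.H344.Four
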