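import Groth.Agent.Dual.H343.Inv
import Groth.Agent.Dual.H344.Four
import Groth.Agent.Dcoh.TMod

/-!
# The functorial four term sequence `0 → i_* Hom(O_D, M) → M → L ⊗ M → i_*(i^* M ⊗ i^* L) → 0`
for an effective Cartier divisor
-/

set_option autoImplicit false
universe u

open CategoryTheory CategoryTheory.Limits AlgebraicGeometry Opposite MonoidalCategory
open scoped Groth.Agent.Dcoh.MonCat

namespace Groth.Agent.Dual.H344.SchFour

open Groth.Agent.Dual.H343 Groth.Agent.Dual.H343.Setup Groth.Agent.Dual.H343.Inv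
open Groth.Agent.FormalB.TrKQuot Groth.Agent.Dual.H344.Four

variable {X : Scheme.{u}} (I : X.IdealSheafData) (L : X.Modules) (e : L ⊗ ClSub.idealMod I ≅ 𝟙_ X.Modules)
  {G : X.Modules ⥤ I.subscheme.Modules} (adj₂ : Scheme.Modules.pushforward I.subschemeι ⊣ G) [G.Additive]

/-- `i^* L`. -/
noncomputable abbrev N : I.subscheme.Modules := (Scheme.Modules.pullback I.subschemeι).obj L

/-- The functor `M ↦ i^* M ⊗ i^* L`. -/
noncomputable abbrev S : X.Modules ⥤ I.subscheme.Modules :=
  Scheme.Modules.pullback I.subschemeι ⋙ DCoh.tensorRightMod (N I L)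

/-- The unit `M ⟶ i_* i^* M` as a natural transformation. -/
noncomputable abbrev unit : 𝟭 X.Modules ⟶ Scheme.Modules.pullback I.subschemeι ⋙ Scheme.Modules.pushforward I.subschemeι :=
  (Scheme.Modules.pullbackPushforwardAdjunction I.subschemeι).unit

/-- The projection map. -/
noncomputable def pr (G' : I.subscheme.Modules) : (Scheme.Modules.pushforward I.subschemeι).obj G' ⊗ L ⟶
    (Scheme.Modules.pushforward I.subschemeι).obj ((DCoh.tensorRightMod (N I L)).obj G') :=
  Groth.Agent.Dcoh.ClosedProj.proj I.subschemeι G' L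

instance isIso_pr (G' : I.subscheme.Modules) : IsIso (pr I L G') :=
  Groth.Agent.Dcoh.ClosedProj.isIso_proj I.subschemeι G' L

@[reassoc]
lemma pr_naturality {G' G'' : I.subscheme.Modules} (f : G' ⟶ G'') :
    (Scheme.Modules.pushforward I.subschemeι).map f ▷ L ≫ pr I L G'' =
      pr I L G' ≫ (Scheme.Modules.pushforward I.subschemeι).map ((DCoh.tensorRightMod (N I L)).map f) :=
  Groth.Agent.Dcoh.ClosedProj.proj_naturality_left I.subschemeι f L

/-- `L ⊗ i_* G' ≅ i_*(G' ⊗ i^* L)`. -/
noncomputable def compIso (G' : I.subscheme.Modules) :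
    L ⊗ (Scheme.Modules.pushforward I.subschemeι).obj G' ≅
      (Scheme.Modules.pushforward I.subschemeι).obj ((DCoh.tensorRightMod (N I L)).obj G') :=
  β_ L ((Scheme.Modules.pushforward I.subschemeι).obj G') ≪≫ asIso (pr I L G')

@[reassoc]
lemma compIso_naturality {G' G'' : I.subscheme.Modules} (f : G' ⟶ G'') :
    L ◁ (Scheme.Modules.pushforward I.subschemeι).map f ≫ (compIso I L G'').hom =
      (compIso I L G').hom ≫ (Scheme.Modules.pushforward I.subschemeι).map ((DCoh.tensorRightMod (N I L)).map f) := by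
  simp only [compIso, Iso.trans_hom, asIso_hom, Category.assoc]
  rw [← pr_naturality, BraidedCategory.braiding_naturality_right_assoc]

/-- The epimorphism `L ⊗ M ⟶ i_*(i^* M ⊗ i^* L)`. -/
noncomputable def p : tensorLeft L ⟶ S I L ⋙ Scheme.Modules.pushforward I.subschemeι where
  app M := L ◁ (unit I).app M ≫ (compIso I L _).hom
  naturality M M' f := by
    have h1 := (unit I).naturality f
    have h2 := compIso_naturality I L ((Scheme.Modules.pullback I.subschemeι).map f)
    change L ◁ f ≫ L ◁ (unit I).app M' ≫ _ = (L ◁ (unit I).app M ≫ _) ≫ _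
    rw [Category.assoc]
    refine Eq.trans ?_ (congrArg (_ ≫ ·) h2)
    rw [← MonoidalCategory.whiskerLeft_comp_assoc, ← MonoidalCategory.whiskerLeft_comp_assoc]
    exact congrArg (fun t => L ◁ t ≫ (compIso I L _).hom) h1

/-- `I ⊗ M ⟶ M ⟶ i_* i^* M` is exact. -/
lemma exact_mul_unit (M : X.Modules) :
    (ShortComplex.mk ((mulNat I).app M) ((unit I).app M) (mul_comp_unit M)).Exact := by
  have hepi : Epi ((unit I).app M) := epi_kπ I M
  apply ShortComplex.exact_of_g_is_cokernel
  refine CokernelCofork.IsColimit.ofπ _ _ (fun g hg => (exists_fac g hg).choose)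
    (fun g hg => (exists_fac g hg).choose_spec) (fun g hg m hm => ?_)
  rw [← cancel_epi ((unit I).app M)]
  exact hm.trans (exists_fac g hg).choose_spec.symm

/-- `M ⟶ L ⊗ M`. -/
noncomputable def eta : 𝟭 X.Modules ⟶ tensorLeft L :=
  Mate.eta (tensorAdj L (ClSub.idealMod I) e) (mulNat I)

lemma eta_app (M : X.Modules) : (eta I L e).app M =
    (tensorAdj L (ClSub.idealMod I) e).unit.app M ≫ L ◁ (mulNat I).app M :=
  (tensorAdj L (ClSub.idealMod I) e).homEquiv_unit _ _ _

lemma eta_p (M : X.Modules) : (eta I L e).app M ≫ (p I L).app M = 0 := by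
  have h1 : (mulNat I).app M ≫ (unit I).app M = 0 := mul_comp_unit M
  have h2 : L ◁ (mulNat I).app M ≫ L ◁ (unit I).app M = 0 := by
    refine (MonoidalCategory.whiskerLeft_comp L _ _).symm.trans ?_
    rw [h1]
    exact (tensorLeft L).map_zero _ _
  rw [eta_app, Category.assoc]
  change _ ≫ L ◁ (mulNat I).app M ≫ L ◁ (unit I).app M ≫ (compIso I L _).hom = 0
  rw [reassoc_of% h2, zero_comp, comp_zero]

/-- The four term exact sequence. -/
noncomputable def E : FourTerm (Scheme.Modules.pushforward I.subschemeι) G (S I L) (tensorLeft L) where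
  a := adj₂.counit
  s := eta I L e
  p := p I L
  as M := Mate.counit_comp_eta (tensorAdj L (ClSub.idealMod I) e) (mulNat I)
    (Scheme.Modules.pullbackPushforwardAdjunction I.subschemeι) adj₂ (fun A => mul_comp_unit A) M
  sp M := eta_p I L e M
  mono_a M := Mate.mono_counit (Scheme.Modules.pullbackPushforwardAdjunction I.subschemeι) adj₂
    (fun A => epi_kπ I A) M
  epi_p M := by
    have : (tensorLeft L).IsEquivalence := isEquivalence_right L (ClSub.idealMod I) e
    have h1 : Epi ((unit I).app M) := epi_kπ I M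
    have h2 : Epi (L ◁ (unit I).app M) := inferInstanceAs (Epi ((tensorLeft L).map ((unit I).app M)))
    exact inferInstanceAs (Epi (L ◁ (unit I).app M ≫ (compIso I L _).hom))
  ex₁ M := Mate.exact_counit_eta (tensorAdj L (ClSub.idealMod I) e) (mulNat I)
    (Scheme.Modules.pullbackPushforwardAdjunction I.subschemeι) adj₂ (fun A B g hg => exists_fac g hg) M _
  ex₂ M := by
    have h1 : (tensorLeft L).IsEquivalence := isEquivalence_right L (ClSub.idealMod I) e
    have h1' : (tensorLeft (ClSub.idealMod I)).IsEquivalence := isEquivalence_left L (ClSub.idealMod I) e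
    have h2 := (exact_mul_unit I M).map (tensorLeft L)
    have h3 : IsIso ((tensorAdj L (ClSub.idealMod I) e).unit.app M) := inferInstance
    let S₁ := ShortComplex.mk ((eta I L e).app M) ((p I L).app M) (eta_p I L e M)
    let S₂ := (ShortComplex.mk ((mulNat I).app M) ((unit I).app M) (mul_comp_unit M)).map (tensorLeft L)
    let a₁ : S₁.X₁ ≅ S₂.X₁ := @asIso _ _ _ _ ((tensorAdj L (ClSub.idealMod I) e).unit.app M) h3
    have φ : S₁ ≅ S₂ := ShortComplex.isoMk a₁ (Iso.refl _)
      (compIso I L _).symm ((eta_app I L e M).symm.trans (Category.comp_id _).symm) (by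
        refine (Category.id_comp _).trans ?_
        exact (Iso.eq_comp_inv _).2 rfl)
    exact (ShortComplex.exact_iff_of_iso φ).2 h2

/-- `η_J` is epi for `J` injective. -/
lemma epi_E_s (J : X.Modules) [Injective J] : Epi ((E I L e adj₂).s.app J) :=
  Mate.epi_eta (tensorAdj L (ClSub.idealMod I) e) (mulNat I) J (exists_cover _)

/-- `η_M` is mono if `I ⊗ M ⟶ M` is. -/
lemma mono_E_s (M : X.Modules) (hM : Mono (mul I M)) : Mono ((E I L e adj₂).s.app M) := by
  have h1' : (tensorLeft (ClSub.idealMod I)).IsEquivalence := isEquivalence_left L (ClSub.idealMod I) e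
  exact Mate.mono_eta (tensorAdj L (ClSub.idealMod I) e) (mulNat I) M hM

/-- `η_M` is mono for `M` flat. -/
lemma mono_E_s_of_flat (M : X.Modules) (hM : FlatMod.IsFlat M) : Mono ((E I L e adj₂).s.app M) :=
  mono_E_s I L e adj₂ M (mono_mul hM)

end Groth.Agent.Dual.H344.SchFour
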