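import Groth.Prelude.Def_Dual3
import Groth.Agent.Dual.H344.PlusIso
import Groth.Agent.Dual.H344.SchFour
import Groth.Agent.Dual.H344.FourQis
import Groth.Agent.Dual.H344.FlatCover
import Groth.Agent.Dcoh.LTMod
import Groth.Agent.Dcoh.DerPull

/-!
# `R Hom(O_D, -) ≅ (L i^*(-) ⊗^L N)[-1]` on `D^+(O_X)` for an effective Cartier divisor
-/

set_option autoImplicit false
universe u

open CategoryTheory CategoryTheory.Limits AlgebraicGeometry MonoidalCategory
open scoped Groth.Agent.Dcoh.MonCat
attribute [local instance] HasDerivedCategory.standard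

namespace Groth.Agent.Dual.H344.Cartier

open Groth.Agent.Dual.H344.SchFour Groth.Agent.Dual.H344.Four Groth.Agent.Dual.H343.Inv
open Groth.Agent.Dcoh

variable {X : Scheme.{u}} (I : X.IdealSheafData) (L : X.Modules)
  [DCoh.HasLpull I.subschemeι] [DCoh.HasLTensorMod (N I L)]

/-- The counit of `L i^*(-) ⊗^L N`. -/
noncomputable def ε : DerivedCategory.Q ⋙ (DCoh.Lpull I.subschemeι ⋙ DCoh.LTensorMod (N I L)) ⟶
    (S I L).mapHomologicalComplex (ComplexShape.up ℤ) ⋙ DerivedCategory.Q where
  app K := (DCoh.LTensorMod (N I L)).map ((DerPull.lpullCounitQ I.subschemeι).app K) ≫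
    LDer.counitQ (DCoh.LTensorMod (N I L)) (LTMod.counit (N I L))
      (((Scheme.Modules.pullback I.subschemeι).mapHomologicalComplex (ComplexShape.up ℤ)).obj K)
  naturality K K' f := by
    have h1 := (DerPull.lpullCounitQ I.subschemeι).naturality f
    have h2 := LDer.counitQ_naturality (DCoh.LTensorMod (N I L)) (LTMod.counit (N I L))
      (((Scheme.Modules.pullback I.subschemeι).mapHomologicalComplex (ComplexShape.up ℤ)).map f)
    have h3 := congrArg (fun t => (DCoh.LTensorMod (N I L)).map t) h1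
    rw [Functor.map_comp, Functor.map_comp] at h3
    refine (Category.assoc _ _ _).symm.trans ?_
    refine (congrArg (· ≫ _) h3).trans ?_
    refine (Category.assoc _ _ _).trans ?_
    refine (congrArg (_ ≫ ·) h2).trans ?_
    exact (Category.assoc _ _ _).symm

lemma isIso_ε_of_isKFlat (K : CochainComplex X.Modules ℤ) (hK : DCoh.IsKFlat K) : IsIso ((ε I L).app K) := by
  have h1 := DerPull.isIso_lpullCounitQ_app I.subschemeι K hK
  have h2 := LDer.isIso_counitQ (LTMod.adapted (N I L)) (DCoh.LTensorMod (N I L)) (LTMod.counit (N I L))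
    (KFlatInput.isKFlat_pullback I.subschemeι K hK)
  exact @IsIso.comp_isIso _ _ _ _ _ _ _ inferInstance h2

variable (e : L ⊗ ClSub.idealMod I ≅ 𝟙_ X.Modules)
  {G : X.Modules ⥤ I.subscheme.Modules} (adj₂ : Scheme.Modules.pushforward I.subschemeι ⊣ G) [G.Additive]

omit [DCoh.HasLpull I.subschemeι] in
lemma full_pushforward : (Scheme.Modules.pushforward I.subschemeι).Full := by
  have h1 : ∀ M, IsIso ((Scheme.Modules.pullbackPushforwardAdjunction I.subschemeι).counit.app M) :=
    fun M => Groth.Agent.FormalB.TrKQuot.isIso_counit I M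
  have h2 : IsIso (Scheme.Modules.pullbackPushforwardAdjunction I.subschemeι).counit :=
    NatIso.isIso_of_isIso_app _
  exact (Scheme.Modules.pullbackPushforwardAdjunction I.subschemeι).fullyFaithfulROfIsIsoCounit.full

include e adj₂ in
lemma isIso_ε (K : CochainComplex X.Modules ℤ) (hK : ∀ n, Mono ((E I L e adj₂).s.app (K.X n))) :
    IsIso ((ε I L).app K) := by
  have := full_pushforward I
  have := Groth.Agent.FormalB.TrKQuot.faithful_pushforward I.subschemeι
  have := Groth.Agent.Sga67.ClosedPush.preservesFiniteColimits_pushforward I.subschemeι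
  have : (tensorLeft L).IsEquivalence := isEquivalence_right L (ClSub.idealMod I) e
  obtain ⟨P, q, hP, hP', hq, -⟩ := KFlatMod.exists_resolution K
  have h1 : QuasiIso (((S I L).mapHomologicalComplex (ComplexShape.up ℤ)).map q) :=
    (E I L e adj₂).quasiIso_S q hq (fun n => mono_E_s_of_flat I L e adj₂ _ (hP' n)) hK
  have h2 := isIso_ε_of_isKFlat I L P hP
  have h3 := (ε I L).naturality q
  have h4 : IsIso (DerivedCategory.Q.map q) := inferInstance
  have h5 : IsIso (DerivedCategory.Q.map (((S I L).mapHomologicalComplex (ComplexShape.up ℤ)).map q)) :=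
    inferInstance
  have h6 : IsIso ((DerivedCategory.Q ⋙ (DCoh.Lpull I.subschemeι ⋙ DCoh.LTensorMod (N I L))).map q ≫
      (ε I L).app K) := by
    rw [h3]
    exact @IsIso.comp_isIso _ _ _ _ _ _ _ h2 h5
  have h7 : IsIso ((DerivedCategory.Q ⋙ (DCoh.Lpull I.subschemeι ⋙ DCoh.LTensorMod (N I L))).map q) :=
    inferInstanceAs (IsIso ((DCoh.Lpull I.subschemeι ⋙ DCoh.LTensorMod (N I L)).map (DerivedCategory.Q.map q)))
  exact @IsIso.of_isIso_comp_left _ _ _ _ _ _ ((ε I L).app K) h7 h6

include e adj₂ in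
theorem main [EnoughInjectives X.Modules] : Nonempty (G.rightDerivedFunctorPlus ⋙ DerivedCategory.Plus.ι ≅
    DerivedCategory.Plus.ι ⋙ (DCoh.Lpull I.subschemeι ⋙ DCoh.LTensorMod (N I L)) ⋙
      shiftFunctor (DCoh.D I.subscheme) (-1 : ℤ)) := by
  have := full_pushforward I
  have := Groth.Agent.FormalB.TrKQuot.faithful_pushforward I.subschemeι
  have := Groth.Agent.Sga67.ClosedPush.preservesFiniteColimits_pushforward I.subschemeι
  have : (tensorLeft L).IsEquivalence := isEquivalence_right L (ClSub.idealMod I) e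
  exact PlusIso.main (E I L e adj₂) (FlatCover.canπ (FlatCover.fr X))
    (fun M => mono_E_s_of_flat I L e adj₂ _ (FlatCover.isFlat_F X M))
    (fun J hJ => epi_E_s I L e adj₂ J) (ε I L) (isIso_ε I L e adj₂)

end Groth.Agent.Dual.H344.Cartier
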