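import Mathlib.Algebra.Homology.HomotopyCategory.Pretriangulated
import Mathlib.Algebra.Homology.DerivedCategory.ShortExact
import Mathlib.Algebra.Homology.HomologicalComplexAbelian

/-!
# A functorial short exact sequence `0 → R I → Z I → I⟦1⟧ → 0` with `Z I` contractible

Let `F : A ⥤ A` be a functor (not necessarily additive) on an abelian category, with a natural epimorphism
`c : F ⟶ 𝟭 A`.  For a complex `I`, `Z I` is the mapping cone of the identity of the complex with terms `F (I^n)` and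
zero differentials.  There is a natural termwise epimorphism `Z I ⟶ I⟦1⟧`; its kernel is `R I`, and in the derived
category `R I ≅ I`, naturally in `I`.
-/

set_option autoImplicit false

universe w v₁ u₁

open CategoryTheory CategoryTheory.Limits CochainComplex CochainComplex.HomComplex

namespace Groth.Agent.Dual.H344.Cover

variable {A : Type u₁} [Category.{v₁} A] [Abelian A] (F : A ⥤ A) (c : F ⟶ 𝟭 A)

/-- The complex with terms `F (I^n)` and zero differentials. -/
@[simps]
def gr : CochainComplex A ℤ ⥤ CochainComplex A ℤ where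
  obj I := { X n := F.obj (I.X n), d _ _ := 0 }
  map f := { f n := F.map (f.f n) }

/-- The functorial contractible complex. -/
noncomputable def Z : CochainComplex A ℤ ⥤ CochainComplex A ℤ where
  obj I := mappingCone (𝟙 ((gr F).obj I))
  map {I J} f := mappingCone.map (𝟙 ((gr F).obj I)) (𝟙 ((gr F).obj J)) ((gr F).map f) ((gr F).map f) (by simp)
  map_id I := by
    rw [← mappingCone.map_id]
    congr 1 <;> exact (gr F).map_id I
  map_comp f g := by
    rw [← mappingCone.map_comp]
    congr 1 <;> exact (gr F).map_comp f g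

/-- `Z I` is contractible. -/
noncomputable def contract (I : CochainComplex A ℤ) : Homotopy (𝟙 ((Z F).obj I)) 0 :=
  mappingCone.homotopyToZeroOfId _

variable {F}

/-- The cochain `gr I → I⟦1⟧` of degree `-1` given by `c`. -/
noncomputable def α (I : CochainComplex A ℤ) : Cochain ((gr F).obj I) (I⟦(1 : ℤ)⟧) (-1) :=
  Cochain.mk (fun p q hpq => c.app (I.X p) ≫ (I.shiftFunctorObjXIso 1 q p (by lia)).inv)

/-- The cocycle `δ α`. -/
noncomputable def β (I : CochainComplex A ℤ) : (gr F).obj I ⟶ I⟦(1 : ℤ)⟧ :=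
  Cocycle.homOf (Cocycle.mk (δ (-1) 0 (α c I)) 1 (zero_add 1) (δ_δ _ _ _ _))

lemma ofHom_β (I : CochainComplex A ℤ) : Cochain.ofHom (β c I) = δ (-1) 0 (α c I) := by
  simp [β]

lemma α_naturality {I J : CochainComplex A ℤ} (f : I ⟶ J) :
    (α c I).comp (Cochain.ofHom (f⟦(1 : ℤ)⟧')) (add_zero _) =
      (Cochain.ofHom ((gr F).map f)).comp (α c J) (zero_add _) := by
  ext p q hpq
  obtain rfl : p = q + 1 := by lia
  rw [Cochain.comp_v _ _ _ (q + 1) q q hpq (add_zero q), Cochain.comp_v _ _ _ (q + 1) (q + 1) q (add_zero _) hpq]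
  simp only [α, Cochain.mk_v, Cochain.ofHom_v, gr_map_f, Category.assoc]
  have h := c.naturality (f.f (q + 1))
  dsimp at h ⊢
  simp
  exact h.symm

lemma β_naturality {I J : CochainComplex A ℤ} (f : I ⟶ J) :
    β c I ≫ f⟦(1 : ℤ)⟧' = (gr F).map f ≫ β c J := by
  apply Cochain.ofHom_injective
  rw [Cochain.ofHom_comp, Cochain.ofHom_comp, ofHom_β, ofHom_β, ← δ_ofHom_comp, ← δ_comp_ofHom,
    α_naturality]

/-- The natural epimorphism `Z I ⟶ I⟦1⟧`. -/
noncomputable def πapp (I : CochainComplex A ℤ) : (Z F).obj I ⟶ I⟦(1 : ℤ)⟧ :=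
  mappingCone.desc (𝟙 _) (α c I) (β c I) (by rw [Category.id_comp, ofHom_β])

lemma πapp_naturality {I J : CochainComplex A ℤ} (f : I ⟶ J) :
    (Z F).map f ≫ πapp c J = πapp c I ≫ f⟦(1 : ℤ)⟧' := by
  have h1 : mappingCone.map (𝟙 ((gr F).obj I)) (𝟙 ((gr F).obj J)) ((gr F).map f) ((gr F).map f) (by simp) ≫
      mappingCone.desc (𝟙 _) (α c J) (β c J) (by rw [Category.id_comp, ofHom_β]) =
      mappingCone.desc (𝟙 _) (α c I) (β c I) (by rw [Category.id_comp, ofHom_β]) ≫ f⟦(1 : ℤ)⟧' := by
    ext n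
    rw [mappingCone.ext_from_iff _ (n + 1) n rfl]
    constructor
    · have h := Cochain.congr_v (α_naturality c f) (n + 1) n (by lia)
      rw [Cochain.comp_v _ _ _ (n + 1) n n (by lia) (add_zero n),
        Cochain.comp_v _ _ _ (n + 1) (n + 1) n (add_zero _) (by lia)] at h
      simp only [Cochain.ofHom_v] at h
      rw [HomologicalComplex.comp_f, HomologicalComplex.comp_f, mappingCone.inl_v_desc_f_assoc, h]
      simp only [mappingCone.map, mappingCone.inl_v_desc_f_assoc, Cochain.zero_cochain_comp_v, Cochain.ofHom_v,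
        Category.assoc, mappingCone.inl_v_desc_f]
    · have h := HomologicalComplex.congr_hom (β_naturality c f) n
      simp only [HomologicalComplex.comp_f] at h
      rw [HomologicalComplex.comp_f, HomologicalComplex.comp_f, mappingCone.inr_f_desc_f_assoc, h]
      simp only [mappingCone.map, mappingCone.inr_f_desc_f_assoc, HomologicalComplex.comp_f,
        Category.assoc, mappingCone.inr_f_desc_f]
  exact h1

/-- The natural epimorphism `Z I ⟶ I⟦1⟧`. -/
noncomputable def π : Z F ⟶ shiftFunctor (CochainComplex A ℤ) (1 : ℤ) where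
  app I := πapp c I
  naturality _ _ f := πapp_naturality c f

instance epi_πapp_f [∀ M, Epi (c.app M)] (I : CochainComplex A ℤ) (n : ℤ) : Epi ((πapp c I).f n) := by
  have h1 : (mappingCone.inl (𝟙 ((gr F).obj I))).v (n + 1) n (by lia) ≫ (πapp c I).f n =
      (α c I).v (n + 1) n (by lia) := mappingCone.inl_v_desc_f _ _ _ _ _ _ _
  have h2 : Epi ((α c I).v (n + 1) n (by lia)) := by
    rw [α, Cochain.mk_v]
    have : Epi (c.app (I.X (n + 1))) := inferInstance
    exact epi_comp' this inferInstance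
  rw [← h1] at h2
  exact @epi_of_epi _ _ _ _ _ _ _ h2

instance epi_π_app [∀ M, Epi (c.app M)] (I : CochainComplex A ℤ) : Epi ((π c).app I) :=
  HomologicalComplex.epi_of_epi_f _ (fun n => epi_πapp_f c I n)

/-- The kernel of `Z I ⟶ I⟦1⟧`. -/
noncomputable def R : CochainComplex A ℤ ⥤ CochainComplex A ℤ where
  obj I := kernel ((π c).app I)
  map {I J} f := kernel.map _ _ ((Z F).map f) (f⟦(1 : ℤ)⟧') ((π c).naturality f).symm
  map_id I := by
    apply equalizer.hom_ext
    simp
  map_comp f g := by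
    apply equalizer.hom_ext
    simp

/-- The short complex `R I ⟶ Z I ⟶ I⟦1⟧`. -/
@[simps]
noncomputable def ses : CochainComplex A ℤ ⥤ ShortComplex (CochainComplex A ℤ) where
  obj I := ShortComplex.mk (X₁ := (R c).obj I) (X₂ := (Z F).obj I) (X₃ := I⟦(1 : ℤ)⟧)
    (kernel.ι ((π c).app I)) ((π c).app I) (kernel.condition _)
  map {I J} f :=
    { τ₁ := (R c).map f
      τ₂ := (Z F).map f
      τ₃ := f⟦(1 : ℤ)⟧'
      comm₁₂ := kernel.lift_ι _ _ _
      comm₂₃ := (π c).naturality f }

variable [∀ M, Epi (c.app M)]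

lemma shortExact (I : CochainComplex A ℤ) : ((ses c).obj I).ShortExact where
  exact := ShortComplex.exact_of_f_is_kernel _ (kernelIsKernel _)
  mono_f := inferInstanceAs (Mono (kernel.ι ((π c).app I)))
  epi_g := epi_π_app c I

section Derived

variable [HasDerivedCategory.{w} A]

open DerivedCategory

lemma isZero_Q_Z (I : CochainComplex A ℤ) : IsZero (Q.obj ((Z F).obj I)) := by
  rw [IsZero.iff_id_eq_zero, ← Q.map_id, Q_map_eq_of_homotopy _ (contract F I), Q.map_zero]

/-- The connecting morphism `I⟦1⟧ ⟶ (R I)⟦1⟧` in the derived category. -/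
noncomputable def δ (I : CochainComplex A ℤ) :
    Q.obj (I⟦(1 : ℤ)⟧) ⟶ (Q.obj ((R c).obj I))⟦(1 : ℤ)⟧ := triangleOfSESδ (shortExact c I)

instance isIso_δ (I : CochainComplex A ℤ) : IsIso (δ c I) :=
  (Pretriangulated.Triangle.isZero₂_iff_isIso₃ _ (triangleOfSES_distinguished (shortExact c I))).1
    (isZero_Q_Z I)

@[reassoc]
lemma δ_naturality {I J : CochainComplex A ℤ} (f : I ⟶ J) :
    δ c I ≫ (Q.map ((R c).map f))⟦(1 : ℤ)⟧' = Q.map (f⟦(1 : ℤ)⟧') ≫ δ c J :=
  triangleOfSESδ_naturality (shortExact c I) (shortExact c J) ((ses c).map f)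

/-- `(R I)⟦1⟧ ≅ I⟦1⟧` in the derived category. -/
noncomputable def isoShift (I : CochainComplex A ℤ) : (Q.obj ((R c).obj I))⟦(1 : ℤ)⟧ ≅ (Q.obj I)⟦(1 : ℤ)⟧ :=
  (asIso (δ c I)).symm ≪≫ (Q.commShiftIso (1 : ℤ)).app I

lemma isoShift_naturality {I J : CochainComplex A ℤ} (f : I ⟶ J) :
    (Q.map ((R c).map f))⟦(1 : ℤ)⟧' ≫ (isoShift c J).hom = (isoShift c I).hom ≫ (Q.map f)⟦(1 : ℤ)⟧' := by
  have h' := (Q.commShiftIso (1 : ℤ)).hom.naturality f
  dsimp at h'
  simp only [isoShift, Iso.trans_hom, Iso.symm_hom, asIso_inv, Iso.app_hom, Category.assoc]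
  rw [← h', ← cancel_epi (δ c I), IsIso.hom_inv_id_assoc, δ_naturality_assoc, IsIso.hom_inv_id_assoc]

/-- `R I ≅ I` in the derived category, naturally in the complex `I`. -/
noncomputable def isoQ : R c ⋙ Q ≅ Q :=
  NatIso.ofComponents (fun I => (CategoryTheory.shiftFunctor (DerivedCategory A) (1 : ℤ)).preimageIso (isoShift c I)) (by
    intro I J f
    apply (CategoryTheory.shiftFunctor (DerivedCategory A) (1 : ℤ)).map_injective
    simpa using isoShift_naturality c f)

end Derived

end Groth.Agent.Dual.H344.Cover
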