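import Groth.Agent.Dual.H344.Four

/-!
# The functorial four term exact sequence on cochain complexes
-/

set_option autoImplicit false

universe v₁ v₂ u₁ u₂

open CategoryTheory CategoryTheory.Limits

namespace Groth.Agent.Dual.H344.Four

variable {A : Type u₁} [Category.{v₁} A] [Abelian A] {B : Type u₂} [Category.{v₂} B] [Abelian B]

namespace FourTerm

variable {ι : B ⥤ A} {H S : A ⥤ B} {T : A ⥤ A} (E : FourTerm ι H S T)
  [ι.Additive] [H.Additive] [S.Additive] [T.Additive]

/-- The four term exact sequence on complexes. -/
noncomputable def cx : FourTerm (ι.mapHomologicalComplex (ComplexShape.up ℤ))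
    (H.mapHomologicalComplex (ComplexShape.up ℤ)) (S.mapHomologicalComplex (ComplexShape.up ℤ))
    (T.mapHomologicalComplex (ComplexShape.up ℤ)) where
  a :=
    { app K := { f n := E.a.app (K.X n), comm' i j _ := (E.a.naturality (K.d i j)).symm }
      naturality K L f := by
        ext n
        exact E.a.naturality (f.f n) }
  s :=
    { app K := { f n := E.s.app (K.X n), comm' i j _ := (E.s.naturality (K.d i j)).symm }
      naturality K L f := by
        ext n
        exact E.s.naturality (f.f n) }
  p :=
    { app K := { f n := E.p.app (K.X n), comm' i j _ := (E.p.naturality (K.d i j)).symm }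
      naturality K L f := by
        ext n
        exact E.p.naturality (f.f n) }
  as K := by
    ext n
    exact E.as (K.X n)
  sp K := by
    ext n
    exact E.sp (K.X n)
  mono_a K := HomologicalComplex.mono_of_mono_f _ (fun n => E.mono_a (K.X n))
  epi_p K := HomologicalComplex.epi_of_epi_f _ (fun n => E.epi_p (K.X n))
  ex₁ K := HomologicalComplex.exact_of_degreewise_exact _ (fun n => E.ex₁ (K.X n))
  ex₂ K := HomologicalComplex.exact_of_degreewise_exact _ (fun n => E.ex₂ (K.X n))

@[simp]
lemma cx_a_app_f (K : CochainComplex A ℤ) (n : ℤ) : (E.cx.a.app K).f n = E.a.app (K.X n) := rfl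

@[simp]
lemma cx_s_app_f (K : CochainComplex A ℤ) (n : ℤ) : (E.cx.s.app K).f n = E.s.app (K.X n) := rfl

@[simp]
lemma cx_p_app_f (K : CochainComplex A ℤ) (n : ℤ) : (E.cx.p.app K).f n = E.p.app (K.X n) := rfl

end FourTerm

end Groth.Agent.Dual.H344.Four
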