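import Groth.Agent.Dual.H344.FourCx
import Groth.Agent.Dual.H344.Cover
import Mathlib.Algebra.Homology.DerivedCategory.ShortExact

/-!
# `H(I)⟦1⟧ ≅ LS(I)` for complexes `I` with `I^n ⟶ T I^n` epi, naturally in `I`
-/

set_option autoImplicit false

universe w₁ w₂ v₁ v₂ v₃ u₁ u₂ u₃

open CategoryTheory CategoryTheory.Limits DerivedCategory

namespace Groth.Agent.Dual.H344.Main

open Groth.Agent.Dual.H344.Four Groth.Agent.Dual.H344.Cover

variable {A : Type u₁} [Category.{v₁} A] [Abelian A] {B : Type u₂} [Category.{v₂} B] [Abelian B]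
  {ι : B ⥤ A} {H S : A ⥤ B} {T : A ⥤ A} (E : FourTerm ι H S T)
  [ι.Additive] [H.Additive] [S.Additive] [T.Additive] [ι.Full] [ι.Faithful]
  [PreservesFiniteLimits ι] [PreservesFiniteColimits ι]
  [PreservesFiniteLimits T] [PreservesFiniteColimits T]
  {F : A ⥤ A} (c : F ⟶ 𝟭 A) [∀ M, Epi (c.app M)]

section Torsion

omit [ι.Additive] [H.Additive] [S.Additive] [T.Additive] [ι.Full] [ι.Faithful]
  [PreservesFiniteLimits ι] [PreservesFiniteColimits ι]
  [PreservesFiniteLimits T] [PreservesFiniteColimits T]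

omit [Abelian B] in
lemma mono_s_of_mono {M N : A} (f : M ⟶ N) [Mono f] [Mono (E.s.app N)] : Mono (E.s.app M) := by
  have h : Mono (E.s.app M ≫ T.map f) := by
    have := E.s.naturality f
    dsimp at this
    rw [← this]
    infer_instance
  exact mono_of_mono _ (T.map f)

omit [Abelian B] in
lemma mono_s_Z (hF : ∀ M, Mono (E.s.app (F.obj M))) (I : CochainComplex A ℤ) (n : ℤ) :
    Mono (E.s.app (((Z F).obj I).X n)) := by
  refine Preadditive.mono_of_cancel_zero _ (fun {W} f hf => ?_)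
  have hf' (N : A) (g : ((Z F).obj I).X n ⟶ N) [Mono (E.s.app N)] : f ≫ g = 0 := by
    have h := E.s.naturality g
    dsimp at h
    rw [← cancel_mono (E.s.app N), Category.assoc, h, reassoc_of% hf, zero_comp, zero_comp]
  refine (CochainComplex.mappingCone.ext_to_iff (𝟙 ((gr F).obj I)) n (n + 1) rfl f 0).2 ⟨?_, ?_⟩
  · have : Mono (E.s.app (((gr F).obj I).X (n + 1))) := hF (I.X (n + 1))
    rw [zero_comp]
    exact hf' _ _
  · have : Mono (E.s.app (((gr F).obj I).X n)) := hF (I.X n)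
    rw [zero_comp]
    exact hf' _ _

omit [Abelian B] [∀ (M : A), Epi (c.app M)] in
lemma mono_s_R (hF : ∀ M, Mono (E.s.app (F.obj M))) (I : CochainComplex A ℤ) (n : ℤ) :
    Mono (E.s.app (((R c).obj I).X n)) := by
  have := mono_s_Z E hF I n
  let f : (R c).obj I ⟶ (Z F).obj I := kernel.ι ((π c).app I)
  have h0 : Mono f := inferInstanceAs (Mono (kernel.ι ((π c).app I)))
  have h1 : Mono (f.f n) := (HomologicalComplex.eval A (ComplexShape.up ℤ) n).map_mono f
  exact mono_s_of_mono E (f.f n)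

end Torsion

variable [HasDerivedCategory.{w₁} A] [HasDerivedCategory.{w₂} B]

section

variable (hF : ∀ M, Mono (E.s.app (F.obj M))) (I : CochainComplex A ℤ) (hI : ∀ n, Epi (E.s.app (I.X n)))

/-- The connecting map `H (I⟦1⟧) ⟶ S (R I)`. -/
noncomputable def conn (I : CochainComplex A ℤ) :
    (H.mapHomologicalComplex (ComplexShape.up ℤ)).obj (I⟦(1 : ℤ)⟧) ⟶
      (S.mapHomologicalComplex (ComplexShape.up ℤ)).obj ((R c).obj I) :=
  E.cx.δ (shortExact c I)

omit [PreservesFiniteLimits ι] [PreservesFiniteColimits ι] [HasDerivedCategory A]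
  [HasDerivedCategory B] in
lemma conn_naturality {I J : CochainComplex A ℤ} (f : I ⟶ J) :
    conn E c I ≫ (S.mapHomologicalComplex (ComplexShape.up ℤ)).map ((R c).map f) =
      (H.mapHomologicalComplex (ComplexShape.up ℤ)).map (f⟦(1 : ℤ)⟧') ≫ conn E c J :=
  E.cx.δ_naturality (shortExact c I) (shortExact c J) ((ses c).map f)

omit [HasDerivedCategory A] [HasDerivedCategory B] in
include hF hI in
lemma shortExact_conn :
    (ShortComplex.mk _ _ (E.cx.δ_S_f (shortExact c I))).ShortExact := by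
  refine E.cx.shortExact (shortExact c I) ?_ ?_
  · have : Mono (E.cx.s.app ((Z F).obj I)) := HomologicalComplex.mono_of_mono_f _ (fun n => mono_s_Z E hF I n)
    exact E.cx.isZero_H ((Z F).obj I)
  · have : Epi (E.cx.s.app (I⟦(1 : ℤ)⟧)) := HomologicalComplex.epi_of_epi_f _ (fun n => hI (n + 1))
    exact E.cx.isZero_S (I⟦(1 : ℤ)⟧)

omit [HasDerivedCategory A] in
include hF hI in
lemma isIso_Q_conn : IsIso (Q.map (conn E c I)) := by
  refine (Pretriangulated.Triangle.isZero₃_iff_isIso₁ _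
    (triangleOfSES_distinguished (shortExact_conn E c hF I hI))).1 ?_
  change IsZero (Q.obj ((S.mapHomologicalComplex (ComplexShape.up ℤ)).obj ((Z F).obj I)))
  rw [IsZero.iff_id_eq_zero, ← Q.map_id, ← (S.mapHomologicalComplex (ComplexShape.up ℤ)).map_id,
    Q_map_eq_of_homotopy _ (S.mapHomotopy (contract F I)), Functor.map_zero, Q.map_zero]

end

section

variable {LS : DerivedCategory A ⥤ DerivedCategory B}
  (ε : Q ⋙ LS ⟶ S.mapHomologicalComplex (ComplexShape.up ℤ) ⋙ Q)
  (hε : ∀ K : CochainComplex A ℤ, (∀ n, Mono (E.s.app (K.X n))) → IsIso (ε.app K))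
  (hF : ∀ M, Mono (E.s.app (F.obj M)))

/-- The comparison isomorphism `H(I)⟦1⟧ ≅ LS(I)` in `D(B)` for `I` with `I^n ⟶ T I^n` epi. -/
noncomputable def isoApp (I : CochainComplex A ℤ) (hI : ∀ n, Epi (E.s.app (I.X n))) :
    (Q.obj ((H.mapHomologicalComplex (ComplexShape.up ℤ)).obj I))⟦(1 : ℤ)⟧ ≅ LS.obj (Q.obj I) :=
  haveI := isIso_Q_conn E c hF I hI
  haveI := hε _ (mono_s_R E c hF I)
  (Q.commShiftIso (1 : ℤ)).symm.app _ ≪≫
    Q.mapIso (((H.mapHomologicalComplex (ComplexShape.up ℤ)).commShiftIso (1 : ℤ)).symm.app I) ≪≫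
    asIso (Q.map (conn E c I)) ≪≫ (asIso (ε.app ((R c).obj I))).symm ≪≫ LS.mapIso ((isoQ c).app I)

lemma isoApp_naturality {I J : CochainComplex A ℤ} (hI : ∀ n, Epi (E.s.app (I.X n)))
    (hJ : ∀ n, Epi (E.s.app (J.X n))) (f : I ⟶ J) :
    (Q.map ((H.mapHomologicalComplex (ComplexShape.up ℤ)).map f))⟦(1 : ℤ)⟧' ≫
      (isoApp E c ε hε hF J hJ).hom = (isoApp E c ε hε hF I hI).hom ≫ LS.map (Q.map f) := by
  have := isIso_Q_conn E c hF I hI
  have := hε _ (mono_s_R E c hF I)
  have := isIso_Q_conn E c hF J hJ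
  have := hε _ (mono_s_R E c hF J)
  have h1 := (Q.commShiftIso (1 : ℤ)).inv.naturality ((H.mapHomologicalComplex (ComplexShape.up ℤ)).map f)
  have h2 := ((H.mapHomologicalComplex (ComplexShape.up ℤ)).commShiftIso (1 : ℤ)).inv.naturality f
  have h3 := conn_naturality E c f
  have h4 := ε.naturality ((R c).map f)
  have h5 := (isoQ c).hom.naturality f
  dsimp only [Functor.comp_map, Functor.comp_obj] at h1 h2 h4 h5
  have h4' : Q.map ((S.mapHomologicalComplex (ComplexShape.up ℤ)).map ((R c).map f)) ≫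
      inv (ε.app ((R c).obj J)) = inv (ε.app ((R c).obj I)) ≫ LS.map (Q.map ((R c).map f)) := by
    rw [IsIso.eq_inv_comp, ← Category.assoc, ← h4, Category.assoc, IsIso.hom_inv_id, Category.comp_id]
  simp only [isoApp, Iso.trans_hom, Iso.symm_hom, asIso_hom, asIso_inv, Iso.app_hom, Functor.mapIso_hom,
    Category.assoc]
  change _ ≫ (Q.commShiftIso (1 : ℤ)).inv.app _ ≫
    Q.map (((H.mapHomologicalComplex (ComplexShape.up ℤ)).commShiftIso (1 : ℤ)).inv.app J) ≫ _ =
    (Q.commShiftIso (1 : ℤ)).inv.app _ ≫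
    Q.map (((H.mapHomologicalComplex (ComplexShape.up ℤ)).commShiftIso (1 : ℤ)).inv.app I) ≫ _
  rw [reassoc_of% h1, ← Q.map_comp_assoc, h2, Q.map_comp_assoc, ← Q.map_comp_assoc _ (conn E c J), ← h3,
    Q.map_comp_assoc, reassoc_of% h4', ← LS.map_comp, ← LS.map_comp, h5]

end

end Groth.Agent.Dual.H344.Main
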